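import Cfsg.Agent.Lib.Thompson.Kegel

/-! The Hughes–Thompson theorem. -/

set_option autoImplicit false

namespace CfsgLib.ThompsonNPC

open Subgroup
open scoped IsMulCommutative

universe u

theorem index_eq_of_hughes {G : Type u} [Group G] [Finite G] {p : ℕ} [hp : Fact p.Prime] {H : Subgroup G}
    [H.Normal] (hne : H ≠ ⊤) (h : ∀ g, g ∉ H → g ^ p = 1) (hnot : ¬ IsPGroup p G) : H.index = p := by
  have hnil := isNilpotent_of_pow_eq_one hne h
  obtain ⟨q, hq, hqd, hqp⟩ : ∃ q : ℕ, q.Prime ∧ q ∣ Nat.card H ∧ q ≠ p := by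
    by_contra hc
    push Not at hc
    apply hnot
    intro g
    by_cases hg : g ∈ H
    · obtain ⟨k, hk⟩ := (IsPGroup.of_card (n := (Nat.card H).primeFactorsList.length)
        (Nat.eq_prime_pow_of_unique_prime_dvd Nat.card_pos.ne' fun {d} hd hdv => hc d hd hdv)) ⟨g, hg⟩
      exact ⟨k, congrArg Subtype.val hk⟩
    · exact ⟨1, by rw [pow_one]; exact h g hg⟩
  haveI := Fact.mk hq
  obtain ⟨R⟩ := (inferInstance : Nonempty (Sylow q H))
  have e : Group.IsNilpotent H ↔ ∀ (p : ℕ) (_hp : Fact p.Prime) (P : Sylow p H), (P : Subgroup H).Normal :=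
    (Group.isNilpotent_of_finite_tfae (G := H)).out 0 3
  haveI := e.mp hnil q ⟨hq⟩ R
  haveI := R.characteristic_of_normal inferInstance
  set R0 := (R : Subgroup H).map H.subtype
  haveI hR0n : R0.Normal := inferInstance
  have hR0 : R0 ≠ ⊥ := fun hb => R.ne_bot_of_dvd_card hqd
    ((map_eq_bot_iff_of_injective _ (subtype_injective H)).mp hb)
  set L := Z R0
  haveI hLn : L.Normal := normalizer_eq_top_iff.mp
    (top_le_iff.mp ((normalizer_eq_top_iff.mpr hR0n).ge.trans (normalizer_le_normalizer_Z R0)))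
  have hLH : L ≤ H := (Z_le R0).trans (map_subtype_le _)
  have hLp : IsPGroup q L := (R.2.map _).to_le (Z_le R0)
  have hL1 : L ≠ ⊥ := Z_ne_bot (R.2.map _) hR0
  haveI : IsMulCommutative L := ⟨⟨fun x y => Subtype.ext ((mem_Z.mp y.2).2 x (Z_le R0 x.2))⟩⟩
  have hcop : (Nat.card L).Coprime p := by
    obtain ⟨j, hj⟩ := IsPGroup.iff_card.mp hLp
    rw [hj]
    exact ((Nat.coprime_primes hq hp.out).mpr hqp).pow_left j
  set c : G →* MulAut L := MulAut.conjNormal with hc
  have hout : ∀ g, g ∉ H → c g ≠ 1 := by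
    intro g hg hcg
    obtain ⟨⟨m, hm⟩, hm1⟩ := ne_bot_iff_exists_ne_one.mp hL1
    apply hm1
    have h1 : g * m * g⁻¹ = m := by
      have h2 := congrArg (Subtype.val : L → G) (DFunLike.congr_fun hcg (⟨m, hm⟩ : L))
      exact h2
    have h2 : (m * g) ^ p = 1 := h _ fun h' => hg (by
      have := H.mul_mem (H.inv_mem (hLH hm)) h'
      rwa [inv_mul_cancel_left] at this)
    rw [(show Commute m g from (mul_inv_eq_iff_eq_mul.mp h1).symm).mul_pow, h g hg, mul_one] at h2
    refine (powCoprime hcop).injective (?_ : (⟨m, hm⟩ : L) ^ p = (1 : L) ^ p)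
    rw [one_pow]; exact Subtype.ext h2
  have hkey : ∀ z b : G, (∀ j : ℕ, z * b ^ j ∉ H) → Commute (c z) (c b) → c b ^ p = 1 → c b = 1 := by
    intro z b hj hcomm hbp
    refine DFunLike.ext _ _ fun m => eq_self_of_map_pow hcop _
      (fix_pow_of_splitting (c z) (c b) hcomm hbp m fun j => ?_)
    have hmg : ((m : G) * (z * b ^ j)) ^ p = 1 := h _ fun h' => hj j (by
      have := H.mul_mem (H.inv_mem (hLH m.2)) h'
      rwa [inv_mul_cancel_left] at this)
    rw [← map_pow, ← map_mul]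
    exact prod_conj_eq_one m (h _ (hj j)) hmg
  -- a Sylow `p`-subgroup covers the quotient
  set f := QuotientGroup.mk' H
  have hfs : Function.Surjective f := QuotientGroup.mk'_surjective H
  have hfp : IsPGroup p (G ⧸ H) := by
    intro x
    obtain ⟨g, rfl⟩ := hfs x
    refine ⟨1, ?_⟩
    rw [pow_one, ← map_pow]
    by_cases hg : g ∈ H
    · exact (QuotientGroup.eq_one_iff _).mpr (H.pow_mem hg p)
    · rw [h g hg, map_one]
  obtain ⟨n, hn⟩ := IsPGroup.iff_card.mp hfp
  rw [← index_eq_card] at hn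
  have hn0 : n ≠ 0 := by
    rintro rfl
    exact hne (index_eq_one.mp (by simpa using hn))
  by_contra hidx
  have hn2 : 2 ≤ n := by
    rcases Nat.lt_or_ge n 2 with h2 | h2
    · obtain rfl : n = 1 := by omega
      exact absurd (by simpa using hn) hidx
    · exact h2
  obtain ⟨S⟩ := (inferInstance : Nonempty (Sylow p G))
  have hcover : ∀ x : G ⧸ H, ∃ s ∈ (S : Subgroup G), f s = x := by
    have htop : ((S.mapSurjective hfs : Sylow p (G ⧸ H)) : Subgroup (G ⧸ H)) = ⊤ :=
      ((S.mapSurjective hfs).is_maximal' (hfp.to_subgroup ⊤) le_top).symm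
    intro x
    have hx : x ∈ (S : Subgroup G).map f := (Sylow.coe_mapSurjective hfs S) ▸ htop.symm ▸ mem_top x
    exact hx
  set c1 : ↥(S : Subgroup G) →* MulAut L := c.comp (S : Subgroup G).subtype
  have hrng : IsPGroup p c1.range := by
    rintro ⟨_, y, rfl⟩
    obtain ⟨k, hk⟩ := S.2 y
    exact ⟨k, Subtype.ext (by rw [SubmonoidClass.coe_pow, ← map_pow, hk, map_one]; rfl)⟩
  have houtside : ∀ x : G ⧸ H, x ≠ 1 → ∃ s : (S : Subgroup G), f s = x ∧ (s : G) ∉ H := by
    intro x hx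
    obtain ⟨s, hs, rfl⟩ := hcover x
    exact ⟨⟨s, hs⟩, rfl, fun hh => hx ((QuotientGroup.eq_one_iff _).mpr hh)⟩
  obtain ⟨x0, hx0⟩ : ∃ x : G ⧸ H, x ≠ 1 := by
    by_contra hc
    push Not at hc
    haveI : Subsingleton (G ⧸ H) := ⟨fun a b => by rw [hc a, hc b]⟩
    rw [index_eq_card, Nat.card_unique] at hn
    exact absurd hn.symm (ne_of_gt (Nat.one_lt_pow hn0 hp.out.one_lt))
  obtain ⟨b0, -, hb0⟩ := houtside x0 hx0
  have htop : (⊤ : Subgroup c1.range) ≠ ⊥ := fun htb => hout b0 hb0 (by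
    have : c1.rangeRestrict b0 ∈ (⊤ : Subgroup c1.range) := mem_top _
    rw [htb, mem_bot] at this
    exact congrArg Subtype.val this)
  obtain ⟨⟨z', hz'⟩, -, hz1, hzp, hzc⟩ := exists_central_of_normal hrng ⊤ htop
  obtain ⟨z, rfl⟩ := hz'
  have hcomm : ∀ s : (S : Subgroup G), Commute (c s) (c z) := fun s =>
    congrArg Subtype.val (hzc (c1.rangeRestrict s))
  have hzp' : c (z : G) ^ p = 1 := congrArg Subtype.val hzp
  by_cases hzH : (z : G) ∈ H
  · refine hz1 (Subtype.ext (hkey b0 z (fun j hj => hb0 ?_) (hcomm b0) hzp'))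
    have := H.mul_mem hj (H.inv_mem (H.pow_mem hzH j))
    simpa using this
  · obtain ⟨y, hy⟩ : ∃ y : G ⧸ H, y ∉ zpowers (f z) := by
      by_contra hc
      push Not at hc
      have h1 : Nat.card (G ⧸ H) = Nat.card (zpowers (f (z : G))) := by
        rw [(eq_top_iff.mpr fun x _ => hc x : zpowers (f (z : G)) = ⊤), card_top]
      rw [Nat.card_zpowers, ← index_eq_card, hn] at h1
      have h2 : orderOf (f (z : G)) ∣ p := orderOf_dvd_of_pow_eq_one (by rw [← map_pow, h _ hzH, map_one])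
      have h3 := Nat.le_of_dvd hp.out.pos (h1 ▸ h2)
      have h4 : p ^ 1 < p ^ n := Nat.pow_lt_pow_right hp.out.one_lt hn2
      rw [pow_one] at h4; omega
    obtain ⟨s, hs, hsH⟩ := houtside y (fun hy1 => hy (hy1 ▸ one_mem _))
    refine hout s hsH (hkey z s (fun j hj => ?_) (hcomm s).symm (by rw [← map_pow, h _ hsH, map_one]))
    have h1 : f (z : G) * y ^ j = 1 := by
      rw [← hs, ← map_pow, ← map_mul]; exact (QuotientGroup.eq_one_iff _).mpr hj
    by_cases hjp : p ∣ j
    · obtain ⟨d, rfl⟩ := hjp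
      rw [← hs, pow_mul, ← map_pow f (s : G) p, h _ hsH, map_one, one_pow, mul_one] at h1
      exact hzH ((QuotientGroup.eq_one_iff _).mp h1)
    · apply hy
      have hco : (orderOf y).Coprime j := Nat.Coprime.coprime_dvd_left
        (orderOf_dvd_of_pow_eq_one (by rw [← hs, ← map_pow, h _ hsH, map_one]))
        (hp.out.coprime_iff_not_dvd.mpr hjp)
      obtain ⟨i, hi⟩ := exists_pow_eq_self_of_coprime hco.symm
      rw [← hi, eq_inv_of_mul_eq_one_right h1]
      exact pow_mem (inv_mem (mem_zpowers _)) i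

end CfsgLib.ThompsonNPC
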